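import Cfsg.Agent.Lib.CompLen.NonAb

/-!
# The composition length bound
-/

set_option autoImplicit false

open MulAction

namespace Cfsg.Agent.Lib.CompLen

theorem exists_min {G : Type*} [Group G] [Finite G] (Pr : Subgroup G → Prop) (h : ∃ L, Pr L) :
    ∃ L, Pr L ∧ ∀ L', Pr L' → L' ≤ L → L' = L := by
  obtain ⟨m, hm, hmin⟩ := WellFounded.has_min (wellFounded_lt (α := Subgroup G)) {L | Pr L} h
  refine ⟨m, hm, fun L' hL' hle => ?_⟩
  by_contra hne
  exact hmin L' hL' (lt_of_le_of_ne hle hne)

/-- The primitive case. -/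
theorem step_prim {s : ℕ} (hs : Claim s) {G Ω : Type} [Group G] [Finite G] [Finite Ω]
    [MulAction G Ω] [FaithfulSMul G Ω] [IsPreprimitive G Ω]
    (hm : Nat.card G + Nat.card Ω ≤ s) (hn : 1 < Nat.card Ω) (x : Ω) :
    3 * cl G + 4 ≤ 4 * Nat.card Ω := by
  classical
  haveI : Nontrivial Ω := (Finite.one_lt_card_iff_nontrivial).1 hn
  have hGtop : (⊤ : Subgroup G) ≠ ⊥ := by
    obtain ⟨a, b, hab⟩ := exists_pair_ne Ω
    obtain ⟨g, hg⟩ := exists_smul_eq G a b
    intro h
    have : g ∈ (⊥ : Subgroup G) := h ▸ Subgroup.mem_top g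
    rw [Subgroup.mem_bot] at this
    rw [this, one_smul] at hg
    exact hab hg
  obtain ⟨N, ⟨hNn, hN1⟩, hNmin'⟩ := exists_min (fun L : Subgroup G => L.Normal ∧ L ≠ ⊥)
    ⟨⊤, inferInstance, hGtop⟩
  haveI := hNn
  have hNmin : ∀ L : Subgroup G, L.Normal → L ≤ N → L = ⊥ ∨ L = N := by
    intro L hL hLN
    by_cases h0 : L = ⊥
    · exact Or.inl h0
    · exact Or.inr (hNmin' L ⟨hL, h0⟩ hLN)
  have hfix : fixedPoints N Ω ≠ Set.univ := by
    intro h
    apply hN1
    rw [eq_bot_iff]
    intro n hn
    rw [Subgroup.mem_bot]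
    apply FaithfulSMul.eq_of_smul_eq_smul (α := Ω)
    intro β
    have h1 : β ∈ fixedPoints N Ω := h ▸ Set.mem_univ β
    rw [one_smul]
    exact h1 ⟨n, hn⟩
  haveI hNtr' : IsPretransitive N Ω := IsQuasiPreprimitive.isPretransitive_of_normal hfix
  have hNtr : ∀ a b : Ω, ∃ n ∈ N, n • a = b := by
    intro a b
    obtain ⟨n, hn⟩ := exists_smul_eq N a b
    exact ⟨n, n.2, hn⟩
  by_cases hab : ∀ y ∈ N, ∀ z ∈ N, y * z = z * y
  · exact step_abelian N hN1 hNmin hab hNtr x
  · obtain ⟨T, ⟨hTN, hT1, hTnorm⟩, hTmin'⟩ := exists_min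
      (fun L : Subgroup G => L ≤ N ∧ L ≠ ⊥ ∧ NormIn L N)
      ⟨N, le_rfl, hN1, normIn_of_le_normal hNn⟩
    have hsetup : Setup N T := by
      refine ⟨hNn, hNmin, hTN, hT1, hTnorm, ?_⟩
      intro L hLT hLn
      by_cases h0 : L = ⊥
      · exact Or.inl h0
      · exact Or.inr (hTmin' L ⟨hLT.trans hTN, h0, hLn⟩ hLT)
    by_cases hTtr : ∀ a b : Ω, ∃ t ∈ T, t • a = b
    · exact step_trans hs hm hsetup hTtr x hn
    · exact step_intr hs hm hsetup hab hNtr hTtr x

/-- The main induction. -/
theorem claim_all (s : ℕ) : Claim s := by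
  induction s with
  | zero =>
    intro G _ _ Ω _ _ _ h
    omega
  | succ s hs =>
    intro G _ _ Ω _ _ _ hlt
    have hm : Nat.card G + Nat.card Ω ≤ s := by omega
    classical
    by_cases hE : IsEmpty Ω
    · haveI hsub : Subsingleton G :=
        ⟨fun a b => FaithfulSMul.eq_of_smul_eq_smul (α := Ω) (fun z => hE.elim z)⟩
      have h1 : cl G = 0 := cl_of_subsingleton
      haveI : IsEmpty (orbitRel.Quotient G Ω) :=
        ⟨fun q => by
          induction q using Quotient.inductionOn with
          | h z => exact hE.elim z⟩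
      have h2 : orbs G Ω = 0 := Nat.card_of_isEmpty
      omega
    · rw [not_isEmpty_iff] at hE
      obtain ⟨x⟩ := id hE
      by_cases htr : ∀ a b : Ω, ∃ g : G, g • a = b
      · haveI hpre : IsPretransitive G Ω := ⟨htr⟩
        rw [orbs_eq_one]
        by_cases hn : Nat.card Ω ≤ 1
        · have hpos : 0 < Nat.card Ω := Nat.card_pos
          have hΩ : Nat.card Ω = 1 := by omega
          haveI : Subsingleton Ω := (Nat.card_eq_one_iff_unique.1 hΩ).1
          haveI hsub : Subsingleton G :=
            ⟨fun a b => FaithfulSMul.eq_of_smul_eq_smul (α := Ω)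
              (fun z => Subsingleton.elim _ _)⟩
          have h1 : cl G = 0 := cl_of_subsingleton
          omega
        · by_cases hprim : IsPreprimitive G Ω
          · have := step_prim hs hm (by omega) x
            omega
          · have hB : ∃ B : Set Ω, IsBlock G B ∧ ¬ IsTrivialBlock B := by
              by_contra hcon
              push Not at hcon
              exact hprim ⟨fun {B} hB => hcon B hB⟩
            obtain ⟨B, hB, hBt⟩ := hB
            have hBt' : ¬ B.Subsingleton ∧ B ≠ Set.univ := by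
              constructor
              · exact fun h => hBt (Or.inl h)
              · exact fun h => hBt (Or.inr h)
            have := step_block hs hm B hB hBt'.1 hBt'.2
            omega
      · push Not at htr
        obtain ⟨a, b, hab⟩ := htr
        refine step_intrans hs hm a b ?_
        rintro ⟨g, hg⟩
        exact hab g hg

/-- The bound for every faithful action. -/
theorem main_bound {G : Type*} {Ω : Type*} [Group G] [Finite G] [MulAction G Ω]
    [FaithfulSMul G Ω] [Fintype Ω] : 3 * cl G + 4 * orbs G Ω ≤ 4 * Fintype.card Ω := by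
  classical
  let e : Ω ≃ Fin (Fintype.card Ω) := Fintype.equivFin Ω
  let φ : G →* Equiv.Perm (Fin (Fintype.card Ω)) :=
    (Equiv.permCongrHom e).toMonoidHom.comp (toPermHom G Ω)
  have hφ : ∀ (g : G) (y : Fin (Fintype.card Ω)), φ g y = e (g • e.symm y) := fun g y => rfl
  have hinj : Function.Injective φ := by
    intro a b hab
    apply FaithfulSMul.eq_of_smul_eq_smul (α := Ω)
    intro z
    have h1 := congrArg (fun σ : Equiv.Perm (Fin (Fintype.card Ω)) => σ (e z)) hab
    simp only [hφ, Equiv.symm_apply_apply] at h1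
    exact e.injective h1
  haveI : Finite φ.range := Finite.of_surjective _ φ.rangeRestrict_surjective
  have h := claim_all (Nat.card φ.range + Nat.card (Fin (Fintype.card Ω)) + 1) φ.range
    (Fin (Fintype.card Ω)) (by omega)
  rw [cl_range_of_injective φ hinj] at h
  have h2 : orbs G Ω ≤ orbs φ.range (Fin (Fintype.card Ω)) := by
    have : Finite (orbitRel.Quotient φ.range (Fin (Fintype.card Ω))) := Quotient.finite _
    refine Nat.card_le_card_of_surjective
      (Quotient.map (fun y => e.symm y) ?_ :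
        orbitRel.Quotient φ.range (Fin (Fintype.card Ω)) → orbitRel.Quotient G Ω) ?_
    · intro a b hab
      obtain ⟨⟨_, c, rfl⟩, rfl⟩ := hab
      refine ⟨c, ?_⟩
      change c • e.symm b = e.symm (φ c b)
      rw [hφ, Equiv.symm_apply_apply]
    · intro q
      induction q using Quotient.inductionOn with
      | h z =>
        refine ⟨Quotient.mk _ (e z), ?_⟩
        apply Quotient.sound
        simp only [Equiv.symm_apply_apply]
        exact ⟨1, one_smul _ _⟩
  have h3 : Nat.card (Fin (Fintype.card Ω)) = Fintype.card Ω := by simp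
  omega

/-- A chain of the statement gives a chain of our form. -/
theorem ch_of_fin {G : Type*} [Group G] (l : ℕ) (H : Fin (l + 1) → Subgroup G) (h0 : H 0 = ⊥)
    (hchain : ∀ i : Fin l, H i.castSucc < H i.succ ∧ ((H i.castSucc).subgroupOf (H i.succ)).Normal)
    (i : Fin (l + 1)) : Ch (⊥ : Subgroup G) (H i) i := by
  induction i using Fin.induction with
  | zero =>
    rw [h0]
    exact Ch.refl
  | succ i ih =>
    obtain ⟨h1, h2⟩ := hchain i
    refine Ch.step ih h1 ?_
    intro g hg m hm
    have h3 := h2.conj_mem ⟨m, h1.le hm⟩ (by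
      rw [Subgroup.mem_subgroupOf]
      exact hm) ⟨g, hg⟩
    rw [Subgroup.mem_subgroupOf] at h3
    exact h3

end Cfsg.Agent.Lib.CompLen
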