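import Cfsg.Agent.Lib.CompLen.Orbits

/-!
# The composition length bound: non-abelian minimal normal subgroups
-/

set_option autoImplicit false

open MulAction
open scoped Pointwise

namespace Cfsg.Agent.Lib.CompLen

theorem Ch.last {G : Type*} [Group G] {A K : Subgroup G} {l : ℕ} (h : Ch A K l) :
    l ≠ 0 → ∃ M m, l = m + 1 ∧ Ch A M m ∧ M < K ∧ NormIn M K := by
  cases h with
  | refl => simp
  | step h1 h2 h3 => exact fun _ => ⟨_, _, rfl, h1, h2, h3⟩

/-- A simple group has length at most one. -/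
theorem cl_simple {G : Type*} [Group G] [Finite G] [IsSimpleGroup G] : cl G ≤ 1 := by
  by_contra hcon
  obtain ⟨M, m, hm, hch, hlt, hn⟩ := Ch.last (ch_cl (G := G)) (by omega)
  have hnorm : M.Normal := ⟨fun x hx g => hn g (Subgroup.mem_top g) x hx⟩
  rcases hnorm.eq_bot_or_eq_top with h | h
  · subst h
    have h2 := Ch.two_pow hch
    have h3 : Nat.card (⊥ : Subgroup G) = 1 := by simp
    rw [h3, mul_one] at h2
    have h4 : m = 0 := by
      by_contra h5
      have : 2 ≤ 2 ^ m := Nat.le_self_pow h5 2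
      omega
    omega
  · exact hlt.ne h

variable {G Ω : Type} [Group G] [Finite G] [Finite Ω] [MulAction G Ω] [FaithfulSMul G Ω]
  {N T : Subgroup G}

/-- The case of a transitive factor. -/
theorem step_trans {s : ℕ} (hs : Claim s) (hm : Nat.card G + Nat.card Ω ≤ s) (h : Setup N T)
    (hTtr : ∀ a b : Ω, ∃ t ∈ T, t • a = b) (α : Ω) (hn2 : 1 < Nat.card Ω) :
    3 * cl G + 4 ≤ 4 * Nat.card Ω := by
  classical
  haveI := h.hNn
  have hNtr : ∀ a b : Ω, ∃ n ∈ N, n • a = b := fun a b => by
    obtain ⟨t, ht, hb⟩ := hTtr a b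
    exact ⟨t, h.hTN ht, hb⟩
  let B := stabilizer G α
  have hprod1 : ∀ g : G, ∃ a ∈ N, ∃ b ∈ B, g = a * b := by
    intro g
    obtain ⟨n, hn, hng⟩ := hNtr α (g • α)
    refine ⟨n, hn, n⁻¹ * g, ?_, by simp⟩
    rw [mem_stabilizer_iff, mul_smul, ← hng, inv_smul_smul]
  have e1 := cl_product N B hprod1
  haveI hTn : (T.subgroupOf N).Normal := by
    constructor
    intro x hx g
    rw [Subgroup.mem_subgroupOf] at hx ⊢
    exact h.hTnorm _ g.2 _ hx
  have hprod2 : ∀ g : N, ∃ a ∈ T.subgroupOf N, ∃ b ∈ B.subgroupOf N, g = a * b := by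
    intro g
    obtain ⟨t, ht, htg⟩ := hTtr α ((g : G) • α)
    refine ⟨⟨t, h.hTN ht⟩, ?_, ⟨t, h.hTN ht⟩⁻¹ * g, ?_, by simp⟩
    · rw [Subgroup.mem_subgroupOf]
      exact ht
    · rw [Subgroup.mem_subgroupOf]
      change ((t⁻¹ * (g : G)) • α = α)
      rw [mul_smul, ← htg, inv_smul_smul]
  have e2 := cl_product (T.subgroupOf N) (B.subgroupOf N) hprod2
  have e3 : cl (T.subgroupOf N) = cl T := cl_congr (Subgroup.subgroupOfEquivOfLe h.hTN)
  have e4 : cl (B.subgroupOf N) = cl (N ⊓ B : Subgroup G) := by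
    have : (N ⊓ B).subgroupOf N = B.subgroupOf N := by
      ext x
      simp [Subgroup.mem_subgroupOf]
    rw [← this]
    exact cl_congr (Subgroup.subgroupOfEquivOfLe inf_le_left)
  haveI := h.isSimple
  have e5 : cl T ≤ 1 := cl_simple
  have e6 : cl G ≤ 1 + cl B := by omega
  -- the stabiliser on the other points
  let X := SubMulAction.ofStabilizer G α
  have hX : Nat.card X + 1 = Nat.card Ω := SubMulAction.nat_card_ofStabilizer_add_one_eq G α
  haveI : Nonempty X := by
    have : 0 < Nat.card X := by omega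
    exact (Nat.card_pos_iff.1 this).1
  have hB : Nat.card B ≤ Nat.card G := Subgroup.card_le_card_group B
  have e7 := ih_gen' hs B X (by omega)
  have hinj : Function.Injective (toPermHom B X) := by
    intro a b hab
    apply Subtype.ext
    apply FaithfulSMul.eq_of_smul_eq_smul (α := Ω)
    intro z
    by_cases hz : z = α
    · have ha : (a : G) • α = α := a.2
      have hb : (b : G) • α = α := b.2
      rw [hz, ha, hb]
    · have h4 := congrArg (fun σ : Equiv.Perm X => ((σ ⟨z, hz⟩ : X) : Ω)) hab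
      exact h4
  rw [cl_range_of_injective _ hinj] at e7
  omega

/-- The kernel of the action on the factors. -/
abbrev KK (T : Subgroup G) : Subgroup G := (toPermHom G (Fac T)).ker

theorem mem_KK {x : G} : x ∈ KK T ↔ ∀ S : Fac T, conjS x S.1 = S.1 := by
  rw [MonoidHom.mem_ker]
  constructor
  · intro h S
    have := congrArg (fun σ : Equiv.Perm (Fac T) => (σ S).1) h
    exact this
  · intro h
    apply Equiv.ext
    intro S
    exact Subtype.ext (h S)

theorem KK_nrm {x : G} (hx : x ∈ KK T) (S : Fac T) : x ∈ nrm S.1 := by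
  have h := mem_KK.1 hx S
  intro m hm
  constructor
  · rw [← h, mem_conjS]
    simpa [mul_assoc] using hm
  · have := hm
    rw [← h, mem_conjS] at this
    exact this

theorem N_le_KK (h : Setup N T) : N ≤ KK T := by
  intro n hn
  rw [mem_KK]
  intro S
  ext y
  rw [mem_conjS]
  have h2 := normIn_iff.1 (h.fac S).hTnorm hn
  constructor
  · intro hy
    have := (h2 _ hy).1
    simpa [mul_assoc] using this
  · exact fun hy => (h2 _ hy).2

/-- The centraliser of a factor in the kernel. -/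
def LL (S : Fac T) : Subgroup (KK T) :=
  (Subgroup.centralizer (S.1 : Set G)).subgroupOf (KK T)

theorem mem_LL {S : Fac T} {x : KK T} : x ∈ LL S ↔ ∀ s ∈ S.1, s * (x : G) = x * s := by
  rw [LL, Subgroup.mem_subgroupOf, Subgroup.mem_centralizer_iff]
  rfl

instance (S : Fac T) : (LL S).Normal := by
  constructor
  intro x hx g
  rw [mem_LL] at hx ⊢
  intro s hs
  have h1 := (KK_nrm g.2 S s hs).2
  have h2 := hx _ h1
  simp only [Subgroup.coe_mul, InvMemClass.coe_inv]
  have h3 : (g : G) * ((g : G)⁻¹ * s * g) * (g : G)⁻¹ = s := by group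
  calc s * ((g : G) * x * (g : G)⁻¹) = (g : G) * (((g : G)⁻¹ * s * g) * x) * (g : G)⁻¹ := by group
    _ = (g : G) * (x * ((g : G)⁻¹ * s * g)) * (g : G)⁻¹ := by rw [h2]
    _ = _ := by group

/-- The bound on one factor. -/
theorem factor_bound {s : ℕ} (hs : Claim s) (hm : Nat.card G + Nat.card Ω ≤ s) (h : Setup N T)
    (hNtr : ∀ a b : Ω, ∃ n ∈ N, n • a = b) (α : Ω)
    (hdn : (orb T α).ncard < Nat.card Ω) (hd5 : 5 ≤ (orb T α).ncard) (S : Fac T)
    [Fintype (Fac T)] :
    3 * cl (KK T ⧸ LL S) + 4 ≤ 4 * (orb T α).ncard := by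
  classical
  have hSN := h.fac S
  set Δ : Set Ω := orb S.1 α with hΔ
  have hΔcard : Δ.ncard = (orb T α).ncard := ncard_fac_orb h hNtr α S α
  let D : Subgroup (KK T) := stabilizer (KK T) Δ
  have hDmem : ∀ x : KK T, x ∈ D ↔ (fun y => (x : G) • y) '' Δ = Δ := by
    intro x
    rw [mem_stabilizer_iff]
    rw [← Set.image_smul]
    rfl
  have hD : ∀ (x : D), ∀ y ∈ Δ, x • y ∈ Δ := by
    intro x y hy
    have h1 := (hDmem x.1).1 x.2
    rw [← h1]
    exact ⟨y, hy, rfl⟩
  let X := sma D Δ hD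
  have hXcard : Nat.card X = Δ.ncard := rfl
  have hαΔ : α ∈ Δ := mem_orb_self _ _
  haveI : Nonempty X := ⟨⟨α, hαΔ⟩⟩
  have hDcard : Nat.card D ≤ Nat.card G := by
    have h1 : Nat.card D ≤ Nat.card (KK T) := Subgroup.card_le_card_group D
    have h2 : Nat.card (KK T) ≤ Nat.card G := Subgroup.card_le_card_group _
    omega
  have e1 := ih_gen' hs D X (by omega)
  let g : D →* KK T ⧸ LL S := (QuotientGroup.mk' (LL S)).comp D.subtype
  -- the kernels
  have hker : (toPermHom D X).ker ≤ g.ker := by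
    intro y hy
    rw [MonoidHom.mem_ker] at hy ⊢
    have hfix : ∀ β ∈ Δ, (y : KK T) • β = β := by
      intro β hβ
      have := congrArg (fun σ : Equiv.Perm X => ((σ ⟨β, hβ⟩ : X) : Ω)) hy
      exact this
    have hfix' : ∀ β ∈ Δ, ((y : KK T) : G) • β = β := hfix
    have hfixinv : ∀ β ∈ Δ, ((y : KK T) : G)⁻¹ • β = β := by
      intro β hβ
      rw [inv_smul_eq_iff]
      exact (hfix' β hβ).symm
    let F : Subgroup G :=
      { carrier := {x | x ∈ S.1 ∧ ∀ β ∈ Δ, x • β = β}
        mul_mem' := by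
          rintro a b ⟨ha, ha2⟩ ⟨hb, hb2⟩
          refine ⟨S.1.mul_mem ha hb, fun β hβ => ?_⟩
          rw [mul_smul, hb2 β hβ, ha2 β hβ]
        one_mem' := ⟨S.1.one_mem, fun β _ => one_smul _ _⟩
        inv_mem' := by
          rintro a ⟨ha, ha2⟩
          refine ⟨S.1.inv_mem ha, fun β hβ => ?_⟩
          rw [inv_smul_eq_iff]
          exact (ha2 β hβ).symm }
    have hmemΔ : ∀ t ∈ S.1, ∀ β ∈ Δ, t • β ∈ Δ := by
      rintro t ht _ ⟨r, hr, rfl⟩
      exact ⟨t * r, S.1.mul_mem ht hr, mul_smul _ _ _⟩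
    have hF : NormIn F S.1 := by
      rintro t ht x ⟨hx, hx2⟩
      refine ⟨S.1.mul_mem (S.1.mul_mem ht hx) (S.1.inv_mem ht), fun β hβ => ?_⟩
      rw [mul_smul, mul_smul, hx2 _ (hmemΔ _ (S.1.inv_mem ht) β hβ), smul_inv_smul]
    have hFbot : F = ⊥ := by
      rcases hSN.simple (L := F) (fun x hx => hx.1) hF with h1 | h1
      · exact h1
      · exfalso
        have hsing : Δ = {α} := by
          ext y
          constructor
          · rintro ⟨t, ht, rfl⟩
            have ht' : t ∈ F := h1 ▸ ht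
            rw [Set.mem_singleton_iff]
            exact ht'.2 α hαΔ
          · rintro rfl
            exact hαΔ
        rw [hsing, Set.ncard_singleton] at hΔcard
        omega
    change (QuotientGroup.mk (y : KK T) : KK T ⧸ LL S) = 1
    rw [QuotientGroup.eq_one_iff, mem_LL]
    intro t ht
    have hc : (((y : KK T) : G) * t * ((y : KK T) : G)⁻¹) * t⁻¹ ∈ F := by
      refine ⟨S.1.mul_mem ((KK_nrm y.1.2 S t ht).1) (S.1.inv_mem ht), fun β hβ => ?_⟩
      rw [mul_smul, mul_smul, mul_smul, hfixinv _ (hmemΔ _ (S.1.inv_mem ht) β hβ), smul_inv_smul,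
        hfix' β hβ]
    rw [hFbot, Subgroup.mem_bot, mul_inv_eq_one, mul_inv_eq_iff_eq_mul] at hc
    exact hc.symm
  -- the surjectivity
  have hsurj : Function.Surjective g := by
    intro q
    obtain ⟨x, rfl⟩ := QuotientGroup.mk'_surjective (LL S) q
    obtain ⟨n, hn, hnx⟩ := hNtr α ((x : G) • α)
    have hdec : N = S.1 ⊔ P (Finset.univ.erase S) := by
      rw [← P_insert, Finset.insert_erase (Finset.mem_univ S), P_univ h]
    have hSnot : S ∉ Finset.univ.erase S := by simp
    have hcomm : ∀ a ∈ S.1, ∀ b ∈ P (Finset.univ.erase S), a * b = b * a :=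
      fun a ha b hb => P_comm h hSnot ha hb
    obtain ⟨a, ha, b, hb, rfl⟩ := mem_sup_commute hcomm (hdec ▸ hn)
    have hbK : b ∈ KK T := N_le_KK h (P_le_N h _ hb)
    let y : KK T := (⟨b, hbK⟩ : KK T)⁻¹ * x
    have hyα : (y : G) • α = a • α := by
      change (b⁻¹ * (x : G)) • α = a • α
      rw [mul_smul, ← hnx, hcomm a ha b hb, smul_smul]
      simp
    have hyD : y ∈ D := (hDmem y).2 (by
      rw [← orb_smul (KK_nrm y.2 S) α]
      apply orb_eq
      rw [hyα]
      exact ⟨a, ha, rfl⟩)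
    refine ⟨⟨y, hyD⟩, ?_⟩
    change ((y : KK T) : KK T ⧸ LL S) = (x : KK T ⧸ LL S)
    have hL : (⟨b, hbK⟩ : KK T)⁻¹ ∈ LL S :=
      (LL S).inv_mem (mem_LL.2 (fun t ht => P_comm h hSnot ht hb))
    rw [QuotientGroup.mk_mul, (QuotientGroup.eq_one_iff _).2 hL, one_mul]
  have e2 := cl_range_le_of_ker_le (toPermHom D X) g hker
  have e3 : g.range = ⊤ := MonoidHom.range_eq_top.2 hsurj
  rw [e3, cl_top] at e2
  omega

theorem arith_five_pow (v : ℕ) : 5 * (v + 1) + 5 ≤ 2 * 5 ^ (v + 1) := by
  induction v with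
  | zero => norm_num
  | succ m ih =>
    rw [pow_succ]
    omega

theorem arith_L15 (L : ℕ) (h : 4 ≤ L) : 15 * L ≤ 4 * 2 ^ L := by
  induction L, h using Nat.le_induction with
  | base => norm_num
  | succ m hm ih =>
    rw [pow_succ]
    have h16 : 2 ^ 4 ≤ 2 ^ m := Nat.pow_le_pow_right (by norm_num) hm
    omega

/-- The arithmetic of the last case. -/
theorem arith_nonab (d k u n : ℕ) (hd : 5 ≤ d) (hu : 2 ≤ u) (hk : k ≤ 2 * u)
    (hn : d * 5 ^ (u - 1) ≤ n) : 4 * d * k + 3 * Nat.log 2 n ≤ 4 * n ∧ k < n := by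
  obtain ⟨v, rfl⟩ : ∃ v, u = v + 2 := ⟨u - 2, by omega⟩
  have e : v + 2 - 1 = v + 1 := by omega
  rw [e] at hn
  have h5 := arith_five_pow v
  have hpow : 5 ≤ 5 ^ (v + 1) := by
    calc 5 = 5 ^ 1 := by norm_num
      _ ≤ 5 ^ (v + 1) := Nat.pow_le_pow_right (by norm_num) (by omega)
  have hn25 : 25 ≤ n := by nlinarith
  have h1 : 5 * k * d ≤ 4 * n := by
    have h2 : 5 * k ≤ 4 * 5 ^ (v + 1) := by omega
    calc 5 * k * d ≤ 4 * 5 ^ (v + 1) * d := Nat.mul_le_mul_right _ h2
      _ = 4 * (d * 5 ^ (v + 1)) := by ring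
      _ ≤ 4 * n := Nat.mul_le_mul_left _ hn
  have hL4 : 4 ≤ Nat.log 2 n := Nat.le_log_of_pow_le (by norm_num) (by omega)
  have h2L : 2 ^ Nat.log 2 n ≤ n := Nat.pow_log_le_self 2 (by omega)
  have h3 := arith_L15 _ hL4
  constructor
  · nlinarith
  · have h6 : 5 ^ (v + 1) ≤ d * 5 ^ (v + 1) := Nat.le_mul_of_pos_left _ (by omega)
    omega

/-- The case of an intransitive factor. -/
theorem step_intr {s : ℕ} (hs : Claim s) (hm : Nat.card G + Nat.card Ω ≤ s) (h : Setup N T)
    (hnab : ¬ ∀ x ∈ N, ∀ y ∈ N, x * y = y * x) (hNtr : ∀ a b : Ω, ∃ n ∈ N, n • a = b)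
    (hTno : ¬ ∀ a b : Ω, ∃ t ∈ T, t • a = b) (α : Ω) :
    3 * cl G + 4 ≤ 4 * Nat.card Ω := by
  classical
  letI : Fintype (Fac T) := Fintype.ofFinite _
  haveI := h.hNn
  have hTfac : ∃ g : G, T = conjS g T := ⟨1, (conjS_one T).symm⟩
  have hdn : (orb T α).ncard < Nat.card Ω := by
    have hle : (orb T α).ncard ≤ Nat.card Ω := by
      rw [← Set.ncard_univ]
      exact Set.ncard_le_ncard (Set.subset_univ _) (Set.toFinite _)
    rcases hle.lt_or_eq with h1 | h1
    · exact h1
    · exfalso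
      apply hTno
      intro a b
      have h2 : (orb T a).ncard = Nat.card Ω := by
        have h3 := ncard_fac_orb h hNtr α ⟨T, hTfac⟩ a
        rw [← h1]
        exact h3
      have h3 : orb T a = Set.univ :=
        Set.eq_of_subset_of_ncard_le (Set.subset_univ _) (by rw [Set.ncard_univ, h2])
      have h4 : b ∈ orb T a := h3 ▸ Set.mem_univ b
      exact h4
  have hmove : ∃ t : T, t • α ≠ α := by
    by_contra hcon
    push Not at hcon
    apply h.hT1
    rw [eq_bot_iff]
    intro t ht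
    rw [Subgroup.mem_bot]
    apply FaithfulSMul.eq_of_smul_eq_smul (α := Ω)
    intro β
    obtain ⟨n, hn, rfl⟩ := hNtr α β
    rw [one_smul, ← mul_smul]
    have h3 := (normIn_iff.1 h.hTnorm hn t ht).2
    have h4 : (n⁻¹ * t * n) • α = α := hcon ⟨_, h3⟩
    have e : t * n = n * (n⁻¹ * t * n) := by group
    rw [e, mul_smul, h4]
  haveI := h.isSimple
  have hd5 : 5 ≤ (orb T α).ncard := by
    have h1 := five_le_orbit (h.not_comm hnab) α hmove
    have e : orbit T α = orb T α := by
      ext y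
      constructor
      · rintro ⟨t, rfl⟩
        exact ⟨t, t.2, rfl⟩
      · rintro ⟨t, ht, rfl⟩
        exact ⟨⟨t, ht⟩, rfl⟩
    have e2 : Nat.card (orbit T α) = (orbit T α).ncard := rfl
    rw [e2, e] at h1
    exact h1
  have hne : (Finset.univ : Finset (Fac T)).Nonempty := ⟨⟨T, hTfac⟩, Finset.mem_univ _⟩
  obtain ⟨U, -, hUne, hSO, hcard⟩ := chain_lemma h hnab hNtr α Finset.univ hne
  rw [P_univ h] at hSO
  have hPU : orb (P U) α = Set.univ := by
    ext β
    simp only [Set.mem_univ, iff_true]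
    obtain ⟨n, hn, rfl⟩ := hNtr α β
    exact hSO.2 hn α
  rw [hPU, Set.ncard_univ] at hcard
  have hu : 2 ≤ U.card := by
    by_contra hcon
    have hU1 : U.card = 1 := by
      have := Finset.card_pos.2 hUne
      omega
    obtain ⟨S, rfl⟩ := Finset.card_eq_one.1 hU1
    have e : P ({S} : Finset (Fac T)) = S.1 := by simp [P]
    rw [e] at hPU
    have := ncard_fac_orb h hNtr α S α
    rw [hPU, Set.ncard_univ] at this
    omega
  have hk : (Finset.univ : Finset (Fac T)).card ≤ 2 * U.card := by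
    have hVU := Finset.card_sdiff_add_card_eq_card (Finset.subset_univ U)
    by_cases hV : Finset.univ \ U = ∅
    · rw [hV, Finset.card_empty] at hVU
      omega
    · have hfree : ∀ x ∈ P (Finset.univ \ U), x • α = α → x = 1 := by
        intro x hx hxα
        apply FaithfulSMul.eq_of_smul_eq_smul (α := Ω)
        intro β
        have hβ : β ∈ orb (P U) α := hPU ▸ Set.mem_univ β
        obtain ⟨p, hp, rfl⟩ := hβ
        have h1 : P (Finset.univ \ U) ≤ Subgroup.centralizer ({p} : Set G) := by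
          apply P_le
          intro S hS y hy
          rw [Subgroup.mem_centralizer_iff]
          intro z hz
          have hzp : z = p := hz
          rw [hzp]
          exact (P_comm h (Finset.mem_sdiff.1 hS).2 hy hp).symm
        have h2 := h1 hx
        rw [Subgroup.mem_centralizer_iff] at h2
        have h3 := h2 p rfl
        rw [one_smul, ← mul_smul, ← h3, mul_smul, hxα]
      have h1 := card_orb_eq_of_free _ _ hfree
      have h2 := card_P h hnab (Finset.univ \ U)
      have h3 : (orb (P (Finset.univ \ U)) α).ncard ≤ Nat.card Ω := by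
        rw [← Set.ncard_univ]
        exact Set.ncard_le_ncard (Set.subset_univ _) (Set.toFinite _)
      have h4 : Nat.card Ω ≤ Nat.card T ^ U.card := by
        have h5 := card_orb_le (P U) α
        rw [hPU, Set.ncard_univ, card_P h hnab U] at h5
        exact h5
      have h5 : 1 < Nat.card T := by
        haveI : Nontrivial T := (Subgroup.nontrivial_iff_ne_bot T).2 h.hT1
        exact Finite.one_lt_card
      have h6 : (Finset.univ \ U).card ≤ U.card := by
        apply (Nat.pow_le_pow_iff_right h5).1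
        rw [← h2, ← h1]
        omega
      omega
  have harith := arith_nonab _ _ _ _ hd5 hu hk hcard
  haveI : Nonempty (Fac T) := ⟨⟨T, hTfac⟩⟩
  have hkcard : Nat.card (Fac T) = (Finset.univ : Finset (Fac T)).card := by
    rw [Nat.card_eq_fintype_card, Finset.card_univ]
  have e1 := ih_gen' hs G (Fac T) (by omega)
  have e0 := cl_split (toPermHom G (Fac T))
  have e2 := cl_le_sum (LL (T := T)) Finset.univ
  have e3 : cl ((Finset.univ : Finset (Fac T)).inf (LL (T := T)) : Subgroup (KK T)) ≤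
      Nat.log 2 (Nat.card Ω) := by
    refine cl_le_log.trans (Nat.log_mono_right ?_)
    set C := (Finset.univ : Finset (Fac T)).inf (LL (T := T)) with hC
    have hCS : ∀ (x : C) (S : Fac T), x.1 ∈ LL S := fun x S =>
      (Finset.inf_le (Finset.mem_univ S) : C ≤ LL S) x.2
    refine Nat.card_le_card_of_injective (fun x : C => ((x.1 : KK T) : G) • α) ?_
    intro a b hab
    have hab' : ((a.1 : KK T) : G) • α = ((b.1 : KK T) : G) • α := hab
    let c : C := b⁻¹ * a
    have hcα : ((c.1 : KK T) : G) • α = α := by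
      change (((b.1 : KK T) : G)⁻¹ * ((a.1 : KK T) : G)) • α = α
      rw [mul_smul, hab', inv_smul_smul]
    have hcN : N ≤ Subgroup.centralizer ({((c.1 : KK T) : G)} : Set G) := by
      rw [← h.iSup_eq]
      apply iSup_le
      intro S y hy
      rw [Subgroup.mem_centralizer_iff]
      intro z hz
      have hzc : z = ((c.1 : KK T) : G) := hz
      rw [hzc]
      exact (mem_LL.1 (hCS c S) y hy).symm
    have hc1 : ((c.1 : KK T) : G) = 1 := by
      apply FaithfulSMul.eq_of_smul_eq_smul (α := Ω)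
      intro β
      obtain ⟨n, hn, rfl⟩ := hNtr α β
      have h2 := hcN hn
      rw [Subgroup.mem_centralizer_iff] at h2
      have h3 := h2 _ rfl
      rw [one_smul, ← mul_smul, h3, mul_smul, hcα]
    have hc2 : c = 1 := Subtype.ext (Subtype.ext hc1)
    have : b⁻¹ * a = 1 := hc2
    rw [inv_mul_eq_one] at this
    exact this.symm
  have e4 : ∀ S : Fac T, 3 * cl (KK T ⧸ LL S) + 4 ≤ 4 * (orb T α).ncard :=
    fun S => factor_bound hs hm h hNtr α hdn hd5 S
  have e5 := Finset.sum_le_sum (s := (Finset.univ : Finset (Fac T))) (fun S _ => e4 S)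
  rw [Finset.sum_add_distrib, ← Finset.mul_sum, Finset.sum_const, Finset.sum_const, smul_eq_mul,
    smul_eq_mul] at e5
  have e6 : (Finset.univ : Finset (Fac T)).card * (4 * (orb T α).ncard) =
      4 * (orb T α).ncard * (Finset.univ : Finset (Fac T)).card := by ring
  rw [e6] at e5
  have e7 : cl G = cl (KK T) + cl (toPermHom G (Fac T)).range := e0
  rw [e7]
  omega

end Cfsg.Agent.Lib.CompLen
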