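import Cfsg.Agent.Lib.CompLen.Factors

/-!
# The composition length bound: orbits of products of factors
-/

set_option autoImplicit false

open MulAction
open scoped Pointwise

namespace Cfsg.Agent.Lib.CompLen

section Orb

variable {G Ω : Type*} [Group G] [MulAction G Ω]

/-- The orbit of a point under a subgroup. -/
def orb (H : Subgroup G) (β : Ω) : Set Ω := {γ | ∃ h ∈ H, h • β = γ}

theorem mem_orb_self (H : Subgroup G) (β : Ω) : β ∈ orb H β := ⟨1, H.one_mem, one_smul _ _⟩

theorem orb_eq {H : Subgroup G} {β γ : Ω} (h : γ ∈ orb H β) : orb H γ = orb H β := by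
  obtain ⟨x, hx, rfl⟩ := h
  ext y
  constructor
  · rintro ⟨z, hz, rfl⟩
    exact ⟨z * x, H.mul_mem hz hx, mul_smul _ _ _⟩
  · rintro ⟨z, hz, rfl⟩
    exact ⟨z * x⁻¹, H.mul_mem hz (H.inv_mem hx), by simp [mul_smul]⟩

theorem orb_eq_of_mem_inter {H : Subgroup G} {β γ y : Ω} (h1 : y ∈ orb H β) (h2 : y ∈ orb H γ) :
    orb H β = orb H γ := by
  rw [← orb_eq h1, orb_eq h2]

theorem orb_mono {H H' : Subgroup G} (h : H ≤ H') (β : Ω) : orb H β ⊆ orb H' β := by
  rintro _ ⟨x, hx, rfl⟩
  exact ⟨x, h hx, rfl⟩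

theorem orb_smul {H : Subgroup G} {n : G} (hn : n ∈ nrm H) (β : Ω) :
    orb H (n • β) = (fun y => n • y) '' orb H β := by
  ext y
  constructor
  · rintro ⟨h, hh, rfl⟩
    refine ⟨(n⁻¹ * h * n) • β, ⟨_, (hn h hh).2, rfl⟩, ?_⟩
    simp [mul_smul]
  · rintro ⟨_, ⟨h, hh, rfl⟩, rfl⟩
    refine ⟨n * h * n⁻¹, (hn h hh).1, ?_⟩
    simp [mul_smul]

theorem ncard_orb_smul {H : Subgroup G} {n : G} (hn : n ∈ nrm H) (β : Ω) :
    (orb H (n • β)).ncard = (orb H β).ncard := by
  rw [orb_smul hn, Set.ncard_image_of_injective _ (MulAction.injective n)]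

theorem orb_conjS (g : G) (H : Subgroup G) (β : Ω) :
    orb (conjS g H) β = (fun y => g • y) '' orb H (g⁻¹ • β) := by
  ext y
  constructor
  · rintro ⟨h, hh, rfl⟩
    rw [mem_conjS] at hh
    refine ⟨_, ⟨_, hh, rfl⟩, ?_⟩
    simp [mul_smul]
  · rintro ⟨_, ⟨h, hh, rfl⟩, rfl⟩
    refine ⟨g * h * g⁻¹, ?_, ?_⟩
    · rw [mem_conjS]
      simpa [mul_assoc] using hh
    · simp [mul_smul]

theorem ncard_orb_conjS (g : G) (H : Subgroup G) (β : Ω) :
    (orb (conjS g H) β).ncard = (orb H (g⁻¹ • β)).ncard := by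
  rw [orb_conjS, Set.ncard_image_of_injective _ (MulAction.injective g)]

/-- The subgroup preserving all orbits of `H`. -/
def stO (H : Subgroup G) : Subgroup G where
  carrier := {x | ∀ β : Ω, x • β ∈ orb H β}
  mul_mem' := by
    intro a b ha hb β
    have h1 := ha (b • β)
    rw [orb_eq (hb β)] at h1
    rw [mul_smul]
    exact h1
  one_mem' := by
    intro β
    rw [one_smul]
    exact mem_orb_self H β
  inv_mem' := by
    intro a ha β
    have h1 := ha (a⁻¹ • β)
    rw [smul_inv_smul] at h1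
    rw [orb_eq h1]
    exact mem_orb_self H _

theorem mem_stO {H : Subgroup G} {x : G} : x ∈ stO (Ω := Ω) H ↔ ∀ β : Ω, x • β ∈ orb H β := Iff.rfl

theorem le_stO (H : Subgroup G) : H ≤ stO (Ω := Ω) H := fun x hx β => ⟨x, hx, rfl⟩

theorem stO_mono {H H' : Subgroup G} (h : H ≤ H') : stO (Ω := Ω) H ≤ stO (Ω := Ω) H' :=
  fun _ hx β => orb_mono h β (hx β)

theorem orb_subset_of_le_stO {A H : Subgroup G} (h : A ≤ stO (Ω := Ω) H) (β : Ω) :
    orb A β ⊆ orb H β := by
  rintro _ ⟨x, hx, rfl⟩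
  exact h hx β

theorem card_orb_le [Finite Ω] [Finite G] (H : Subgroup G) (β : Ω) :
    (orb H β).ncard ≤ Nat.card H := by
  have : Nat.card (orb H β) ≤ Nat.card H := by
    refine Nat.card_le_card_of_surjective (fun h : H => (⟨(h : G) • β, h, h.2, rfl⟩ : orb H β)) ?_
    rintro ⟨_, h, hh, rfl⟩
    exact ⟨⟨h, hh⟩, rfl⟩
  exact this

theorem card_orb_eq_of_free [Finite Ω] [Finite G] (H : Subgroup G) (β : Ω)
    (hfree : ∀ x ∈ H, x • β = β → x = 1) : (orb H β).ncard = Nat.card H := by
  have : Nat.card (orb H β) = Nat.card H := by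
    symm
    refine Nat.card_congr (Equiv.ofBijective
      (fun h : H => (⟨(h : G) • β, h, h.2, rfl⟩ : orb H β)) ⟨?_, ?_⟩)
    · intro a b hab
      have h1 : (a : G) • β = (b : G) • β := congrArg Subtype.val hab
      have h2 : ((b : G)⁻¹ * a) • β = β := by
        rw [mul_smul, h1, inv_smul_smul]
      have h3 := hfree _ (H.mul_mem (H.inv_mem b.2) a.2) h2
      apply Subtype.ext
      rw [inv_mul_eq_one] at h3
      exact h3.symm
    · rintro ⟨_, h, hh, rfl⟩
      exact ⟨⟨h, hh⟩, rfl⟩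
  exact this

/-- The growth of orbits when multiplying by a factor. -/
theorem orb_growth [Finite Ω] [Finite G] {N S H : Subgroup G} (hS : Setup N S)
    (hnab : ¬ ∀ x ∈ N, ∀ y ∈ N, x * y = y * x) (hNtr : ∀ a b : Ω, ∃ n ∈ N, n • a = b)
    (hH : NormIn H N) (α : Ω) {s : G} (hs : s ∈ S) {β : Ω} (hsβ : s • β ∉ orb H β) :
    5 * (orb H α).ncard ≤ (orb (S ⊔ H) α).ncard := by
  classical
  obtain ⟨n, hn, rfl⟩ := hNtr α β
  have hnH : n ∈ nrm H := normIn_iff.1 hH hn
  set X := orb H α with hX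
  -- a point of `S` moving `α` out of `X`
  have hs' : n⁻¹ * s * n ∈ S := by
    have := hS.hTnorm n⁻¹ (N.inv_mem hn) s hs
    simpa using this
  have hout : (n⁻¹ * s * n) • α ∉ X := by
    intro hin
    apply hsβ
    rw [orb_smul hnH]
    refine ⟨_, hin, ?_⟩
    simp [mul_smul]
  haveI hsimple := hS.isSimple
  have hnc := hS.not_comm hnab
  haveI : Finite (orbit S X) := inferInstance
  have hfive : 5 ≤ Nat.card (orbit S X) := by
    apply five_le_orbit hnc X
    refine ⟨⟨_, hs'⟩, ?_⟩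
    intro heq
    apply hout
    have h1 : (⟨_, hs'⟩ : S) • α ∈ (⟨_, hs'⟩ : S) • X :=
      Set.smul_mem_smul_set (mem_orb_self H α)
    rw [heq] at h1
    exact h1
  have hrep : ∀ Z : orbit S X, ∃ t : S, t • X = Z.1 := fun Z => Z.2
  choose rep hrep using hrep
  have htrans : ∀ t : S, t • X = orb H ((t : G) • α) := by
    intro t
    rw [orb_smul (normIn_iff.1 hH (hS.hTN t.2))]
    ext y
    simp only [Set.mem_smul_set, Set.mem_image, Subgroup.smul_def]
    exact Iff.rfl
  have hmem : ∀ (Z : orbit S X) (x : X), (rep Z : G) • (x : Ω) ∈ orb (S ⊔ H) α := by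
    rintro Z ⟨_, h, hh, rfl⟩
    refine ⟨(rep Z : G) * h, Subgroup.mul_mem _ (Subgroup.mem_sup_left (rep Z).2)
      (Subgroup.mem_sup_right hh), mul_smul _ _ _⟩
  have hinj : Function.Injective (fun p : orbit S X × X =>
      (⟨(rep p.1 : G) • (p.2 : Ω), hmem p.1 p.2⟩ : orb (S ⊔ H) α)) := by
    rintro ⟨Z, x⟩ ⟨Z', x'⟩ h
    have h1 : (rep Z : G) • (x : Ω) = (rep Z' : G) • (x' : Ω) := congrArg Subtype.val h
    have hZ : ∀ (Z : orbit S X) (x : X), (rep Z : G) • (x : Ω) ∈ (Z : Set Ω) := by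
      intro Z x
      rw [← hrep Z]
      exact Set.smul_mem_smul_set x.2
    have h2 : (Z : Set Ω) = Z' := by
      rw [← hrep Z, ← hrep Z', htrans, htrans]
      apply orb_eq_of_mem_inter (y := (rep Z : G) • (x : Ω))
      · rw [← htrans, hrep Z]
        exact hZ Z x
      · rw [← htrans, hrep Z', h1]
        exact hZ Z' x'
    have h3 : Z = Z' := Subtype.ext h2
    subst h3
    have h4 : (x : Ω) = x' := MulAction.injective (rep Z : G) h1
    exact Prod.ext rfl (Subtype.ext h4)
  have hcard := Nat.card_le_card_of_injective _ hinj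
  rw [Nat.card_prod] at hcard
  have h5 : Nat.card X = X.ncard := rfl
  have h6 : Nat.card (orb (S ⊔ H) α) = (orb (S ⊔ H) α).ncard := rfl
  rw [h5, h6] at hcard
  exact le_trans (Nat.mul_le_mul_right _ hfive) hcard

end Orb

section Chain

variable {G Ω : Type*} [Group G] [MulAction G Ω] {N T : Subgroup G}

open Classical in
/-- The product of a finite set of factors. -/
noncomputable def P (A : Finset (Fac T)) : Subgroup G := A.sup (fun S => S.1)

open Classical in
theorem P_insert (S : Fac T) (A : Finset (Fac T)) : P (insert S A) = S.1 ⊔ P A := by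
  simp [P, Finset.sup_insert]

theorem P_empty : P (∅ : Finset (Fac T)) = ⊥ := by
  simp [P]

theorem le_P {S : Fac T} {A : Finset (Fac T)} (h : S ∈ A) : S.1 ≤ P A :=
  Finset.le_sup (f := fun S : Fac T => S.1) h

theorem P_le {A : Finset (Fac T)} {K : Subgroup G} (h : ∀ S ∈ A, S.1 ≤ K) : P A ≤ K :=
  Finset.sup_le h

theorem P_mono {A B : Finset (Fac T)} (h : A ⊆ B) : P A ≤ P B :=
  P_le fun _ hS => le_P (h hS)

theorem P_le_N (h : Setup N T) (A : Finset (Fac T)) : P A ≤ N :=
  P_le fun S _ => (h.fac S).hTN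

theorem P_normIn (h : Setup N T) (A : Finset (Fac T)) : NormIn (P A) N := by
  intro x hx m hm
  have h1 : P A ≤ (P A).comap (MulAut.conj x).toMonoidHom := by
    apply P_le
    intro S hS y hy
    rw [Subgroup.mem_comap]
    exact le_P hS ((h.fac S).hTnorm x hx y hy)
  exact h1 hm

theorem P_univ [Fintype (Fac T)] (h : Setup N T) : P (Finset.univ : Finset (Fac T)) = N := by
  apply le_antisymm (P_le_N h _)
  rw [← h.iSup_eq]
  apply iSup_le
  intro S
  exact le_P (Finset.mem_univ S)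

theorem P_comm (h : Setup N T) {S : Fac T} {A : Finset (Fac T)} (hS : S ∉ A) {x y : G}
    (hx : x ∈ S.1) (hy : y ∈ P A) : x * y = y * x := by
  have h1 : P A ≤ Subgroup.centralizer ({x} : Set G) := by
    apply P_le
    intro S' hS' z hz
    rw [Subgroup.mem_centralizer_iff]
    intro w hw
    have hwx : w = x := hw
    rw [hwx]
    have hne : S.1 ≠ S'.1 := by
      intro heq
      apply hS
      rwa [Subtype.ext heq]
    exact (h.fac S).comm (h.fac S') hne hx hz
  have h2 := h1 hy
  rw [Subgroup.mem_centralizer_iff] at h2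
  exact h2 x rfl

theorem P_inf (h : Setup N T) (hnab : ¬ ∀ x ∈ N, ∀ y ∈ N, x * y = y * x) {S : Fac T}
    {A : Finset (Fac T)} (hS : S ∉ A) : S.1 ⊓ P A = ⊥ := by
  rw [eq_bot_iff]
  rintro z ⟨hz1, hz2⟩
  rw [Subgroup.mem_bot]
  apply (h.fac S).center hnab hz1
  intro t ht
  exact (P_comm h hS ht hz2).symm

theorem card_fac [Finite G] (S : Fac T) : Nat.card S.1 = Nat.card T := by
  obtain ⟨g, hg⟩ := S.2
  rw [hg]
  exact Nat.card_congr
    ((T.equivMapOfInjective (MulAut.conj g).toMonoidHom (MulAut.conj g).injective).toEquiv).symm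

open Classical in
theorem card_P [Finite G] (h : Setup N T) (hnab : ¬ ∀ x ∈ N, ∀ y ∈ N, x * y = y * x)
    (A : Finset (Fac T)) : Nat.card (P A) = Nat.card T ^ A.card := by
  induction A using Finset.induction_on with
  | empty => simp [P_empty]
  | insert S A hS ih =>
    rw [P_insert, card_sup_commute (fun a ha b hb => P_comm h hS ha hb) (P_inf h hnab hS), ih,
      Finset.card_insert_of_notMem hS, card_fac S, pow_succ, mul_comm]

/-- All orbits of all factors have the same size. -/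
theorem ncard_fac_orb (h : Setup N T) (hNtr : ∀ a b : Ω, ∃ n ∈ N, n • a = b) (α : Ω)
    (S : Fac T) (β : Ω) : (orb S.1 β).ncard = (orb T α).ncard := by
  obtain ⟨g, hg⟩ := S.2
  rw [hg, ncard_orb_conjS]
  obtain ⟨n, hn, hnb⟩ := hNtr α (g⁻¹ • β)
  rw [← hnb]
  exact ncard_orb_smul (normIn_iff.1 h.hTnorm hn) α

/-- Two subgroups with the same orbits. -/
def SO (A B : Subgroup G) : Prop := A ≤ stO (Ω := Ω) B ∧ B ≤ stO (Ω := Ω) A

theorem SO.sup (S : Subgroup G) {A B : Subgroup G} (h : SO (Ω := Ω) A B) :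
    SO (Ω := Ω) (S ⊔ A) (S ⊔ B) := by
  constructor
  · apply sup_le
    · exact (le_sup_left (a := S) (b := B)).trans (le_stO _)
    · exact h.1.trans (stO_mono le_sup_right)
  · apply sup_le
    · exact (le_sup_left (a := S) (b := A)).trans (le_stO _)
    · exact h.2.trans (stO_mono le_sup_right)

open Classical in
/-- The chain lemma. -/
theorem chain_lemma [Finite G] [Finite Ω] (h : Setup N T)
    (hnab : ¬ ∀ x ∈ N, ∀ y ∈ N, x * y = y * x)
    (hNtr : ∀ a b : Ω, ∃ n ∈ N, n • a = b) (α : Ω) (W : Finset (Fac T)) (hW : W.Nonempty) :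
    ∃ U ⊆ W, U.Nonempty ∧ SO (Ω := Ω) (P U) (P W) ∧
      (orb T α).ncard * 5 ^ (U.card - 1) ≤ (orb (P U) α).ncard := by
  induction W using Finset.induction_on with
  | empty => simp at hW
  | insert S W hS ih =>
    by_cases hWe : W = ∅
    · subst hWe
      refine ⟨{S}, by simp, by simp, ⟨le_stO _ |>.trans le_rfl, le_stO _⟩, ?_⟩
      · simp only [Finset.card_singleton, Nat.sub_self, pow_zero, mul_one]
        have : P ({S} : Finset (Fac T)) = S.1 := by
          simp [P]
        rw [this, ncard_fac_orb h hNtr α S α]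
    · obtain ⟨U, hUW, hUne, hSO, hcard⟩ := ih (Finset.nonempty_iff_ne_empty.2 hWe)
      by_cases hpres : S.1 ≤ stO (Ω := Ω) (P U)
      · refine ⟨U, hUW.trans (Finset.subset_insert _ _), hUne, ?_, hcard⟩
        rw [P_insert]
        constructor
        · exact hSO.1.trans (stO_mono le_sup_right)
        · exact sup_le hpres hSO.2
      · have hout : ∃ s ∈ S.1, ∃ β : Ω, s • β ∉ orb (P U) β := by
          by_contra hcon
          push Not at hcon
          exact hpres hcon
        obtain ⟨s, hs, β, hsβ⟩ := hout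
        have hSU : S ∉ U := by
          intro hin
          exact hsβ ⟨s, le_P hin hs, rfl⟩
        have hgrow := orb_growth (h.fac S) hnab hNtr (P_normIn h U) α hs hsβ
        refine ⟨insert S U, Finset.insert_subset_insert _ hUW, Finset.insert_nonempty _ _, ?_, ?_⟩
        · rw [P_insert, P_insert]
          exact hSO.sup S.1
        · rw [P_insert, Finset.card_insert_of_notMem hSU]
          have hpos : 0 < U.card := Finset.card_pos.2 hUne
          have e : U.card + 1 - 1 = (U.card - 1) + 1 := by omega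
          rw [e, pow_succ, ← mul_assoc]
          calc _ ≤ (orb (P U) α).ncard * 5 := Nat.mul_le_mul_right _ hcard
            _ = 5 * (orb (P U) α).ncard := mul_comm _ _
            _ ≤ _ := hgrow

end Chain

end Cfsg.Agent.Lib.CompLen
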